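import Mathlib
import Cfsg.Agent.FastGrp
import Cfsg.Agent.Prune
set_option linter.all false
prune_inst 0x7f00000000000000000000000000000000000000000000000000000000000000000000000000000000000000000000000000000000000000000000000000000000000000000000000000000000000000003fffffffffffffffffffffffffffbeffbdffffffff
open scoped Cfsg.Agent.FastGrp

/-!
# Elementary facts on real elements (helper538)
-/

set_option autoImplicit false

namespace Cfsg.Agent.H538.RealBasics

variable {G : Type*} [Group G]

/-- if `t x t⁻¹ = x⁻¹` then `t` normalises `⟨x⟩` -/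
theorem mem_normalizer_zpowers_of_inverts {x t : G} (h : t * x * t⁻¹ = x⁻¹) :
    t ∈ Subgroup.normalizer ((Subgroup.zpowers x : Subgroup G) : Set G) := by
  have key : ∀ s : G, s * x * s⁻¹ = x⁻¹ → ∀ y ∈ Subgroup.zpowers x, s * y * s⁻¹ ∈ Subgroup.zpowers x := by
    intro s hs y hy
    obtain ⟨k, rfl⟩ := Subgroup.mem_zpowers_iff.1 hy
    rw [← conj_zpow, hs]
    exact Subgroup.zpow_mem _ (Subgroup.inv_mem _ (Subgroup.mem_zpowers x)) k
  have h' : t⁻¹ * x * t⁻¹⁻¹ = x⁻¹ := by
    have h1 : t * x⁻¹ * t⁻¹ = x := by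
      have := congrArg (·⁻¹) h
      simpa [mul_assoc] using this
    have h2 : x = t⁻¹ * (t * x * t⁻¹) * t := by group
    rw [h] at h2
    rw [inv_inv]
    calc t⁻¹ * x * t = (t⁻¹ * x⁻¹ * t)⁻¹ := by group
      _ = x⁻¹ := by rw [← h2]
  rw [Subgroup.mem_normalizer_iff]
  intro y
  constructor
  · exact key t h y
  · intro hy
    have h3 := key t⁻¹ h' _ hy
    have h4 : t⁻¹ * (t * y * t⁻¹) * t⁻¹⁻¹ = y := by group
    rwa [h4] at h3

/-- a two-element `x` inverted by a two-element `t` lies with `t` in a Sylow 2-subgroup -/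
theorem exists_sylow_of_inverts [Finite G] {x t : G} {i j : ℕ} (hx : orderOf x = 2 ^ i)
    (ht : orderOf t = 2 ^ j) (h : t * x * t⁻¹ = x⁻¹) :
    ∃ Q : Sylow 2 G, x ∈ (Q : Subgroup G) ∧ t ∈ (Q : Subgroup G) := by
  have hX : IsPGroup 2 (Subgroup.zpowers x) := IsPGroup.of_card (n := i) (by
    rw [Nat.card_zpowers, hx])
  have hT : IsPGroup 2 (Subgroup.zpowers t) := IsPGroup.of_card (n := j) (by
    rw [Nat.card_zpowers, ht])
  have hle : Subgroup.zpowers t ≤ Subgroup.normalizer ((Subgroup.zpowers x : Subgroup G) : Set G) := by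
    rw [Subgroup.zpowers_le]
    exact mem_normalizer_zpowers_of_inverts h
  obtain ⟨Q, hQ⟩ := (hX.to_sup_of_normal_left' hT hle).exists_le_sylow
  exact ⟨Q, hQ (Subgroup.mem_sup_left (Subgroup.mem_zpowers x)),
    hQ (Subgroup.mem_sup_right (Subgroup.mem_zpowers t))⟩

/-- conjugating the witness: realness in a Sylow subgroup -/
theorem isConj_of_conj_eq {x t : G} (h : t * x * t⁻¹ = x⁻¹) : IsConj x x⁻¹ :=
  isConj_iff.2 ⟨t, h⟩

/-- the index of the centralizer of a conjugate -/
theorem index_centralizer_conj [Finite G] (x g : G) :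
    (Subgroup.centralizer ({g * x * g⁻¹} : Set G)).index =
      (Subgroup.centralizer ({x} : Set G)).index := by
  have h : Subgroup.centralizer ({g * x * g⁻¹} : Set G) =
      (Subgroup.centralizer ({x} : Set G)).map (MulAut.conj g).toMonoidHom := by
    ext y
    rw [Subgroup.mem_map]
    constructor
    · intro hy
      refine ⟨g⁻¹ * y * g, ?_, by simp [mul_assoc]⟩
      rw [Subgroup.mem_centralizer_singleton_iff] at hy ⊢
      have : g * ((g⁻¹ * y * g) * x) * g⁻¹ = g * (x * (g⁻¹ * y * g)) * g⁻¹ := by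
        calc g * ((g⁻¹ * y * g) * x) * g⁻¹ = y * (g * x * g⁻¹) := by group
          _ = (g * x * g⁻¹) * y := hy
          _ = _ := by group
      exact mul_left_cancel (mul_right_cancel this)
    · rintro ⟨z, hz, rfl⟩
      rw [Subgroup.mem_centralizer_singleton_iff] at hz
      rw [Subgroup.mem_centralizer_singleton_iff]
      change (g * z * g⁻¹) * (g * x * g⁻¹) = (g * x * g⁻¹) * (g * z * g⁻¹)
      calc (g * z * g⁻¹) * (g * x * g⁻¹) = g * (z * x) * g⁻¹ := by group
        _ = g * (x * z) * g⁻¹ := by rw [hz]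
        _ = _ := by group
  rw [h]
  exact Subgroup.index_map_equiv _ (MulAut.conj g)

end Cfsg.Agent.H538.RealBasics
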